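import Mathlib.AlgebraicGeometry.Morphisms.Proper
import Mathlib.AlgebraicGeometry.Morphisms.Separated
import Mathlib.AlgebraicGeometry.Morphisms.Flat
import Mathlib.AlgebraicGeometry.Morphisms.FlatDescent
import Mathlib.AlgebraicGeometry.Morphisms.FinitePresentation
import Mathlib.AlgebraicGeometry.Fiber

/-!
# Generalities on properness over opens and on fibres

* `isProper_of_isPullback_of_range_subset`: if `f ∣_ V` is proper then every base change of `f` along
  a morphism factoring through `V` is proper.
* `isProper_fiber_iff`: properness of fibres is invariant under base change.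
* `isProper_restrict_of_forall`: properness over an open is local on that open.
* `universally_isQuotientMap_of_section`: a morphism with a section is universally submersive.
-/

set_option autoImplicit false
universe u

open CategoryTheory CategoryTheory.Limits AlgebraicGeometry

namespace Groth.Agent.Ega4fib.H179.Basic

variable {X Y X' Y' T Z : Scheme.{u}}

/-- If `f ∣_ V` has a property stable under base change then so has the base change of `f` along
every morphism with image in `V`. -/
theorem of_isPullback_of_range_subset {P : MorphismProperty Scheme.{u}}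
    [P.IsStableUnderBaseChange] (f : X ⟶ Y) (V : Y.Opens) (hV : P (f ∣_ V)) (t : T ⟶ Y)
    (ht : Set.range t ⊆ (V : Set Y)) {a : Z ⟶ X} {b : Z ⟶ T} (H : IsPullback a b f t) : P b := by
  let t' : T ⟶ V := IsOpenImmersion.lift V.ι t (by simpa using ht)
  have ht' : t' ≫ V.ι = t := IsOpenImmersion.lift_fac _ _ _
  have h1 : IsPullback (f ⁻¹ᵁ V).ι (f ∣_ V) f V.ι := (isPullback_morphismRestrict f V).flip
  let a' : Z ⟶ (f ⁻¹ᵁ V : Scheme.{u}) := h1.lift a (b ≫ t') (by rw [Category.assoc, ht', H.w])
  have h2 : IsPullback a' b (f ∣_ V) t' := by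
    refine IsPullback.of_right (h₁₂ := (f ⁻¹ᵁ V).ι) (h₂₂ := V.ι) (v₁₃ := f) ?_ ?_ h1
    · rw [ht', h1.lift_fst]
      exact H
    · exact h1.lift_snd _ _ _
  exact MorphismProperty.of_isPullback h2 hV

/-- Let `P` be a property stable under base change and local at the target. If every point of `U` has a
neighbourhood over which `f` has `P`, then `f` has `P` over `U`. -/
theorem restrict_of_forall {P : MorphismProperty Scheme.{u}} [P.IsStableUnderBaseChange]
    [IsZariskiLocalAtTarget P] (f : X ⟶ Y) (U : Y.Opens)
    (h : ∀ y ∈ U, ∃ V : Y.Opens, y ∈ V ∧ P (f ∣_ V)) : P (f ∣_ U) := by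
  apply IsZariskiLocalAtTarget.of_forall_exists_morphismRestrict (P := P)
  intro y
  obtain ⟨V, hyV, hV⟩ := h y.1 y.2
  refine ⟨U.ι ⁻¹ᵁ V, hyV, ?_⟩
  refine of_isPullback_of_range_subset f V hV ((U.ι ⁻¹ᵁ V).ι ≫ U.ι) ?_
    ((isPullback_morphismRestrict (f ∣_ U) (U.ι ⁻¹ᵁ V)).flip.paste_horiz
      (isPullback_morphismRestrict f U).flip)
  rintro _ ⟨z, rfl⟩
  exact z.2

/-- Properness of the fibres is invariant under base change. -/
theorem isProper_fiber_iff (f : X ⟶ Y) (f' : X' ⟶ Y') (g' : X' ⟶ X) (g : Y' ⟶ Y)
    [IsSeparated f] [LocallyOfFiniteType f] (h : IsPullback g' f' f g) (y : Y') :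
    IsProper (f'.fiberToSpecResidueField y) ↔ IsProper (f.fiberToSpecResidueField (g y)) := by
  have H := isPullback_fiberToSpecResidueField_of_isPullback h y
  constructor
  · intro h'
    have h1 : IsSeparated (f.fiberToSpecResidueField (g y)) :=
      inferInstanceAs (IsSeparated (pullback.snd f (Y.fromSpecResidueField (g y))))
    have h2 : LocallyOfFiniteType (f.fiberToSpecResidueField (g y)) :=
      inferInstanceAs (LocallyOfFiniteType (pullback.snd f (Y.fromSpecResidueField (g y))))
    have h3 : UniversallyClosed (f.fiberToSpecResidueField (g y)) := by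
      refine MorphismProperty.of_isPullback_of_descendsAlong H.flip
        (P := @UniversallyClosed) (Q := @Surjective ⊓ @Flat ⊓ @QuasiCompact) ⟨⟨?_, ?_⟩, ?_⟩ h'.toUniversallyClosed
      · infer_instance
      · infer_instance
      · infer_instance
    exact { }
  · intro h'
    exact MorphismProperty.of_isPullback H h'

/-- A morphism with a section is universally submersive. -/
theorem universally_isQuotientMap_of_section (f : X ⟶ Y) (s : Y ⟶ X) (hs : s ≫ f = 𝟙 Y) :
    MorphismProperty.universally (topologically fun g => Topology.IsQuotientMap g) f := by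
  intro X' Y' i₁ i₂ f' H
  let s' : Y' ⟶ X' := H.lift (𝟙 Y') (i₂ ≫ s) (by rw [Category.assoc, hs]; simp)
  have hs' : s' ≫ f' = 𝟙 Y' := H.lift_fst _ _ _
  have h1 : Function.LeftInverse f' s' := fun y => by
    rw [← Scheme.Hom.comp_apply, hs']
    rfl
  exact Topology.IsQuotientMap.of_inverse s'.continuous f'.continuous h1

end Groth.Agent.Ega4fib.H179.Basic
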